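import Cfsg.Agent.SL2.Klein
import Mathlib.Combinatorics.SimpleGraph.Diam
import Mathlib.NumberTheory.LegendreSymbol.QuadraticChar.Basic

/-!
# The odd product graph on a class of involutions of `PSL₂(q)`
-/

set_option autoImplicit false

namespace CfsgLib.SL2

variable {F : Type*} [Field F]

local notation "SL₂" F => Matrix.SpecialLinearGroup (Fin 2) F
local notation "PSL₂" F => Matrix.ProjectiveSpecialLinearGroup (Fin 2) F
local notation "M₂" F => Matrix (Fin 2) (Fin 2) F

lemma orderOf_odd_of_pow {G : Type*} [Group G] {x : G} {m : ℕ} (hm : Odd m) (h : x ^ m = 1) :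
    Odd (orderOf x) := hm.of_dvd_nat (orderOf_dvd_of_pow_eq_one h)

section Odd

variable [Fintype F]

lemma pmk_pow_eq_one {g : SL₂ F} (h2 : (2 : F) ≠ 0) {m : ℕ} (h : g ^ (2 * m) = 1) :
    (pmk g : PSL₂ F) ^ m = 1 := by
  rw [← map_pow, pmk_eq_one_iff]
  rcases eq_or_ne (g ^ m) 1 with e | e
  · exact Or.inl e
  · exact Or.inr (eq_neg_one_of_mul_self h2 e (by rw [← pow_two, ← pow_mul, mul_comm, h]))

/-- Products with `4 - tr²` zero or a non-square have odd order in `PSL₂`. -/
lemma odd_orderOf_pmk (hodd : Odd (Fintype.card F)) {g : SL₂ F}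
    (hg : tr g ^ 2 = 4 ∨ ¬ IsSquare (4 - tr g ^ 2)) : Odd (orderOf (pmk g : PSL₂ F)) := by
  have h2 := two_ne_zero_iff_odd.2 hodd
  obtain ⟨p, hp⟩ := CharP.exists F
  haveI : Fact p.Prime := ⟨CharP.char_is_prime F p⟩
  rcases eq_or_ne (tr g ^ 2) 4 with h | h
  · have hp2 : p ≠ 2 := fun e => h2 (by subst e; exact CharTwo.two_eq_zero)
    exact orderOf_odd_of_pow ((Fact.out : p.Prime).odd_of_ne_two hp2)
      (pmk_pow_eq_one h2 (pow_two_mul_char_eq_one (p := p) h))
  have hns := hg.resolve_left h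
  have hq := Nat.odd_iff.1 hodd
  have hdvd : ∀ n : ℕ, orderOf g ∣ n → n % 4 = 2 → Odd (orderOf (pmk g : PSL₂ F)) := by
    intro n hn hn4
    refine orderOf_odd_of_pow (m := n / 2) (Nat.odd_iff.2 (by omega)) (pmk_pow_eq_one h2 ?_)
    rw [show 2 * (n / 2) = n by omega]
    exact orderOf_dvd_iff_pow_eq_one.1 hn
  rcases (show Fintype.card F % 4 = 1 ∨ Fintype.card F % 4 = 3 by omega) with h4 | h4
  · obtain ⟨i, hi⟩ := FiniteField.isSquare_neg_one_iff.2 (show Fintype.card F % 4 ≠ 3 by omega)
    have hs : ¬ IsSplitTrace (tr g) := by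
      rw [isSplitTrace_iff_root]
      rintro ⟨a, ha⟩
      exact hns ⟨i * (2 * a - tr g),
        by linear_combination 4 * ha + hi * (2 * a - tr g) ^ 2⟩
    exact hdvd (Fintype.card F + 1) (orderOf_dvd_nonsplit hs) (by omega)
  · have hm1 : ¬ IsSquare (-1 : F) := fun e => FiniteField.isSquare_neg_one_iff.1 e h4
    classical
    have hF : ringChar F ≠ 2 := by
      intro e
      haveI : CharP F 2 := ringChar.eq_iff.1 e
      exact h2 CharTwo.two_eq_zero
    have hsq : IsSquare (-1 * (4 - tr g ^ 2)) := by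
      have h0 : -1 * (4 - tr g ^ 2) ≠ 0 := mul_ne_zero (by simp) (sub_ne_zero.2 (Ne.symm h))
      rw [← quadraticChar_one_iff_isSquare h0, map_mul,
        quadraticChar_neg_one_iff_not_isSquare.2 hm1, quadraticChar_neg_one_iff_not_isSquare.2 hns]
      norm_num
    obtain ⟨y, hy⟩ := hsq
    have hs : IsSplitTrace (tr g) := isSplitTrace_iff_root.2
      ⟨(tr g + y) / 2, by field_simp; linear_combination -hy⟩
    exact hdvd (Fintype.card F - 1) (orderOf_dvd_split h hs) (by omega)

/-- Two trace-zero elements have a trace-zero common neighbour. -/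
lemma exists_common (hodd : Odd (Fintype.card F)) (hq : 4 ≤ Fintype.card F) {g h : SL₂ F}
    (hg : tr g = 0) (hh : tr h = 0) :
    ∃ k : SL₂ F, tr k = 0 ∧ (tr (g * k) ^ 2 = 4 ∨ ¬ IsSquare (4 - tr (g * k) ^ 2)) ∧
      (tr (k * h) ^ 2 = 4 ∨ ¬ IsSquare (4 - tr (k * h) ^ 2)) := by
  classical
  have h2 := two_ne_zero_iff_odd.2 hodd
  by_cases hadj : tr (g * h) ^ 2 = 4 ∨ ¬ IsSquare (4 - tr (g * h) ^ 2)
  · refine ⟨g, hg, Or.inl ?_, hadj⟩
    rw [mul_self_of_tr_eq_zero hg, tr_neg, tr_one]
    ring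
  push Not at hadj
  obtain ⟨hne, r₀, hr₀⟩ := hadj
  set δ : F := -tr (g * h) / 2 with hδ
  set r : F := r₀ / 2 with hr
  have hrsq : r * r = 1 - δ * δ := by rw [hr, hδ]; field_simp; linear_combination -hr₀
  have hr0 : r ≠ 0 := by
    intro e
    apply hne
    have : r₀ = 0 := by
      rw [hr] at e
      exact (div_eq_zero_iff.1 e).resolve_right h2
    rw [this, mul_zero] at hr₀
    linear_combination -hr₀
  -- the orthonormal triple
  have hA : (g : M₂ F) 1 1 = -(g : M₂ F) 0 0 := by rw [tr] at hg; linear_combination hg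
  have hB : (h : M₂ F) 1 1 = -(h : M₂ F) 0 0 := by rw [tr] at hh; linear_combination hh
  have hdA := det_eq g
  have hdB := det_eq h
  rw [hA] at hdA
  rw [hB] at hdB
  have hAB : ((g : M₂ F) * (h : M₂ F)).trace = -2 * δ := by
    rw [hδ, ← Matrix.SpecialLinearGroup.coe_mul, ← tr_eq_trace]; field_simp
  rw [Matrix.trace_fin_two, Matrix.mul_apply, Matrix.mul_apply, Fin.sum_univ_two,
    Fin.sum_univ_two, hA, hB] at hAB
  let E : M₂ F := r⁻¹ • ((h : M₂ F) - δ • (g : M₂ F))
  let J : M₂ F := (g : M₂ F) * E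
  have hfind : ∀ α β γ : F, α * α + β * β + γ * γ = 1 →
      ∃ k : SL₂ F, tr k = 0 ∧ tr (g * k) = -2 * α ∧ tr (k * h) = -2 * (α * δ + β * r) := by
    intro α β γ hsum
    let K : M₂ F := α • (g : M₂ F) + β • E + γ • J
    have hE11 : E 1 1 = -E 0 0 := by simp [E, hA, hB]; ring
    have hdE : E 0 0 * E 1 1 - E 0 1 * E 1 0 = 1 := by
      simp [E, hA, hB]
      field_simp
      linear_combination hdB + δ ^ 2 * hdA + δ * hAB - hrsq
    have hgE : (g : M₂ F) 0 0 * E 0 0 + (g : M₂ F) 0 1 * E 1 0 +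
        ((g : M₂ F) 1 0 * E 0 1 + (g : M₂ F) 1 1 * E 1 1) = 0 := by
      simp [E, hA, hB]
      field_simp
      linear_combination hAB + 2 * δ * hdA
    rw [hA, hE11] at hgE
    rw [hE11] at hdE
    have hJ00 : J 0 0 = (g : M₂ F) 0 0 * E 0 0 + (g : M₂ F) 0 1 * E 1 0 := by
      simp [J, Matrix.mul_apply, Fin.sum_univ_two]
    have hJ01 : J 0 1 = (g : M₂ F) 0 0 * E 0 1 - (g : M₂ F) 0 1 * E 0 0 := by
      simp [J, Matrix.mul_apply, Fin.sum_univ_two, hE11]; ring
    have hJ10 : J 1 0 = (g : M₂ F) 1 0 * E 0 0 - (g : M₂ F) 0 0 * E 1 0 := by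
      simp [J, Matrix.mul_apply, Fin.sum_univ_two, hA]; ring
    have hJ11 : J 1 1 = (g : M₂ F) 1 0 * E 0 1 + (g : M₂ F) 0 0 * E 0 0 := by
      simp [J, Matrix.mul_apply, Fin.sum_univ_two, hA, hE11]
    have hdet : K.det = 1 := by
      rw [Matrix.det_fin_two]
      simp only [K, Matrix.add_apply, Matrix.smul_apply, smul_eq_mul, hJ00, hJ01, hJ10, hJ11, hA, hE11]
      linear_combination (α * α + γ * γ * (-(E 0 0) * E 0 0 - E 0 1 * E 1 0)) * hdA +
        (β * β + γ * γ) * hdE + (α * (-β)) * hgE + hsum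
    refine ⟨⟨K, hdet⟩, ?_, ?_, ?_⟩
    · show K 0 0 + K 1 1 = 0
      simp only [K, Matrix.add_apply, Matrix.smul_apply, smul_eq_mul, hJ00, hJ11, hA, hE11]
      linear_combination γ * hgE
    · show ((g : M₂ F) * K) 0 0 + ((g : M₂ F) * K) 1 1 = _
      simp only [Matrix.mul_apply, Fin.sum_univ_two, K, Matrix.add_apply, Matrix.smul_apply,
        smul_eq_mul, hJ00, hJ01, hJ10, hJ11, hA, hE11]
      linear_combination (-2 * α) * hdA + β * hgE
    · show (K * (h : M₂ F)) 0 0 + (K * (h : M₂ F)) 1 1 = _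
      have hh00 : (h : M₂ F) 0 0 = r * E 0 0 + δ * (g : M₂ F) 0 0 := by
        simp [E]; field_simp; ring
      have hh01 : (h : M₂ F) 0 1 = r * E 0 1 + δ * (g : M₂ F) 0 1 := by
        simp [E]; field_simp; ring
      have hh10 : (h : M₂ F) 1 0 = r * E 1 0 + δ * (g : M₂ F) 1 0 := by
        simp [E]; field_simp; ring
      simp only [Matrix.mul_apply, Fin.sum_univ_two, K, Matrix.add_apply, Matrix.smul_apply,
        smul_eq_mul, hJ00, hJ01, hJ10, hJ11, hA, hE11, hB, hh00, hh01, hh10]
      linear_combination (-2 * α * δ) * hdA + (-2 * β * r) * hdE + (α * r + β * δ) * hgE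
  have hq2 := Nat.odd_iff.1 hodd
  rcases (show Fintype.card F % 4 = 1 ∨ Fintype.card F % 4 = 3 by omega) with h4 | h4
  · obtain ⟨i, hi⟩ := FiniteField.isSquare_neg_one_iff.2 (show Fintype.card F % 4 ≠ 3 by omega)
    obtain ⟨k, hk, h1, h3⟩ := hfind 1 ((1 - δ) / r) (i * ((1 - δ) / r))
      (by linear_combination -((1 - δ) / r) ^ 2 * hi)
    refine ⟨k, hk, Or.inl (by rw [h1]; ring), Or.inl ?_⟩
    rw [h3, div_mul_cancel₀ _ hr0]
    ring
  · have hm1 : ¬ IsSquare (-1 : F) := fun e => FiniteField.isSquare_neg_one_iff.1 e h4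
    obtain ⟨m, hm0, hm1', hm2⟩ : ∃ m : F, m ≠ 0 ∧ m ≠ 1 ∧ m ≠ -1 := by
      by_contra hcon
      push Not at hcon
      have hsub : (Finset.univ : Finset F) ⊆ {0, 1, -1} := by
        intro x _
        simp only [Finset.mem_insert, Finset.mem_singleton]
        by_cases x0 : x = 0
        · exact Or.inl x0
        by_cases x1 : x = 1
        · exact Or.inr (Or.inl x1)
        · exact Or.inr (Or.inr (hcon x x0 x1))
      have := (Finset.card_le_card hsub).trans Finset.card_le_three
      rw [Finset.card_univ] at this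
      omega
    set α : F := (m + m⁻¹) / 2 with hα
    set μ : F := (m - m⁻¹) / 2 with hμ
    have hαμ : α * α - μ * μ = 1 := by rw [hα, hμ]; field_simp; ring
    have hμ0 : μ ≠ 0 := by
      intro e
      rw [hμ] at e
      field_simp at e
      rcases mul_self_eq_one_iff.1 (show m * m = 1 by linear_combination e) with e' | e'
      exacts [hm1' e', hm2 e']
    -- pigeonhole
    let φ : Fˣ → F := fun n => ((n : F) + ((n⁻¹ : Fˣ) : F)) / 2
    let ψ : Fˣ → F := fun n => ((n : F) - μ ^ 2 * ((n⁻¹ : Fˣ) : F)) / 2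
    have hroot : ∀ (f : Fˣ → F) (c : F), (∀ n : Fˣ, f n = ((n : F) + c * ((n⁻¹ : Fˣ) : F)) / 2) →
        ∀ a b : Fˣ, f a = f b ↔ (a : F) = b ∨ (a : F) * b = c := by
      intro f c hf a b
      rw [hf, hf]
      constructor
      · intro e
        have hh : ((a : F) - b) * ((a : F) * b - c) = 0 := by
          push_cast at e
          field_simp at e
          linear_combination e
        rcases mul_eq_zero.1 hh with e' | e'
        · exact Or.inl (sub_eq_zero.1 e')
        · exact Or.inr (sub_eq_zero.1 e')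
      · rintro (e | e)
        · rw [Units.ext e]
        · push_cast
          rw [← e]
          field_simp
          ring
    have hφ := hroot φ 1 (fun n => by simp [φ])
    have hψ := hroot ψ (-μ ^ 2) (fun n => by simp [ψ]; ring)
    have hfibφ : ∀ b ∈ Finset.univ.image φ, (Finset.univ.filter fun n => φ n = b).card ≤ 2 := by
      intro b hb
      obtain ⟨a, -, rfl⟩ := Finset.mem_image.1 hb
      refine (Finset.card_le_card (t := {a, a⁻¹}) ?_).trans Finset.card_le_two
      intro n hn
      simp only [Finset.mem_filter, Finset.mem_univ, true_and] at hn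
      simp only [Finset.mem_insert, Finset.mem_singleton]
      rcases (hφ n a).1 hn with e | e
      · exact Or.inl (Units.ext e)
      · exact Or.inr (eq_inv_of_mul_eq_one_left (Units.ext (by simpa using e)))
    have hfibψ : ∀ b ∈ Finset.univ.image ψ, 2 ≤ (Finset.univ.filter fun n => ψ n = b).card := by
      intro b hb
      obtain ⟨a, -, rfl⟩ := Finset.mem_image.1 hb
      set a' : Fˣ := Units.mk0 (-μ ^ 2) (by simp [hμ0]) * a⁻¹ with ha'
      have hne' : a ≠ a' := by
        intro e
        apply hm1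
        have e1 : (a : F) * a = -μ ^ 2 := by
          nth_rw 1 [e]; simp [ha']
        exact ⟨(a : F) / μ, by field_simp; linear_combination -e1⟩
      refine le_trans (Finset.card_pair hne').ge (Finset.card_le_card ?_)
      intro n hn
      simp only [Finset.mem_insert, Finset.mem_singleton] at hn
      simp only [Finset.mem_filter, Finset.mem_univ, true_and]
      rcases hn with rfl | rfl
      · rfl
      · exact (hψ _ _).2 (Or.inr (by simp [ha']))
    have hlt : (Finset.univ.image ψ).card < (Finset.univ.image φ).card := by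
      have e1 := Finset.card_eq_sum_card_image φ Finset.univ
      have e2 := Finset.card_eq_sum_card_image ψ Finset.univ
      have b2 := Finset.sum_le_sum hfibψ
      rw [Finset.sum_const, smul_eq_mul, ← e2] at b2
      have b1 : ∑ b ∈ Finset.univ.image φ, (Finset.univ.filter fun n => φ n = b).card <
          ∑ b ∈ Finset.univ.image φ, 2 := by
        refine Finset.sum_lt_sum hfibφ ⟨φ 1, Finset.mem_image_of_mem _ (Finset.mem_univ _), ?_⟩
        have : (Finset.univ.filter fun n => φ n = φ 1) = {1} := by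
          ext n
          simp only [Finset.mem_filter, Finset.mem_univ, true_and, Finset.mem_singleton, hφ]
          simp
        rw [this, Finset.card_singleton]
        norm_num
      rw [← e1, Finset.sum_const, smul_eq_mul] at b1
      omega
    obtain ⟨s, hs, hsψ⟩ : ∃ s ∈ Finset.univ.image φ, ∀ n, ψ n ≠ (s - α * δ) / r := by
      by_contra hcon
      push Not at hcon
      refine absurd (Finset.card_le_card_of_injOn (fun s => (s - α * δ) / r) ?_ ?_) (not_le.2 hlt)
      · intro s hs
        obtain ⟨n, hn⟩ := hcon s hs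
        exact Finset.mem_image.2 ⟨n, Finset.mem_univ _, hn⟩
      · intro x _ y _ e
        simpa [hr0] using e
    obtain ⟨n, -, rfl⟩ := Finset.mem_image.1 hs
    set β : F := (φ n - α * δ) / r with hβ
    have hnsq : ¬ IsSquare (μ ^ 2 + β ^ 2) := by
      rintro ⟨y, hy⟩
      have hyb : (y + β) * (y - β) = μ ^ 2 := by linear_combination -hy
      have hy0 : y + β ≠ 0 := fun e => hμ0 (by rw [e, zero_mul] at hyb; simpa using hyb.symm)
      refine hsψ (Units.mk0 _ hy0) ?_
      simp only [ψ, Units.val_inv_eq_inv_val, Units.val_mk0]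
      rw [← hyb]
      field_simp
      ring
    have hF : ringChar F ≠ 2 := by
      intro e
      haveI : CharP F 2 := ringChar.eq_iff.1 e
      exact h2 CharTwo.two_eq_zero
    obtain ⟨γ, hγ⟩ : IsSquare (-1 * (μ ^ 2 + β ^ 2)) := by
      have h0 : μ ^ 2 + β ^ 2 ≠ 0 := fun e => hnsq ⟨0, by simpa using e⟩
      rw [← quadraticChar_one_iff_isSquare (mul_ne_zero (by simp) h0), map_mul,
        quadraticChar_neg_one_iff_not_isSquare.2 hm1, quadraticChar_neg_one_iff_not_isSquare.2 hnsq]
      norm_num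
    obtain ⟨k, hk, h1, h3⟩ := hfind α β γ (by linear_combination hαμ - hγ)
    have hns : ∀ x z : F, z ≠ 0 → 4 - x = -(z * z) → ¬ IsSquare (4 - x) := by
      rintro x z hz e ⟨y, hy⟩
      exact hm1 ⟨y / z, by field_simp; linear_combination hy - e⟩
    refine ⟨k, hk, Or.inr ?_, ?_⟩
    · rw [h1]
      exact hns _ (2 * μ) (mul_ne_zero h2 hμ0) (by linear_combination -4 * hαμ)
    · rw [h3, show α * δ + β * r = φ n by rw [hβ, div_mul_cancel₀ _ hr0]; ring]
      by_cases hz : (n : F) - ((n⁻¹ : Fˣ) : F) = 0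
      · left
        simp only [φ]
        field_simp
        have hn : (n : F) * ((n⁻¹ : Fˣ) : F) = 1 := Units.mul_inv n
        linear_combination ((n : F) - ((n⁻¹ : Fˣ) : F)) * hz + 4 * hn
      · right
        refine hns _ _ hz ?_
        have hn : (n : F) * ((n⁻¹ : Fˣ) : F) = 1 := Units.mul_inv n
        simp only [φ]
        field_simp
        linear_combination (-4) * hn

end Odd

section Two

variable [Fintype F] [CharP F 2]

lemma odd_orderOf_pmk_two {g : SL₂ F} (hg : tr g ≠ 0) : Odd (orderOf (pmk g : PSL₂ F)) := by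
  haveI : Fact (2 : ℕ).Prime := ⟨Nat.prime_two⟩
  obtain ⟨n, -, hn⟩ := FiniteField.card F 2
  have he : Even (Fintype.card F) := by rw [hn]; exact Nat.even_pow.2 ⟨even_two, n.ne_zero⟩
  have ht : tr g ^ 2 ≠ 4 := by
    rw [show (4 : F) = 2 * 2 by norm_num, (CharTwo.two_eq_zero : (2 : F) = 0), mul_zero]
    exact pow_ne_zero 2 hg
  refine Odd.of_dvd_nat ?_ (orderOf_map_dvd pmk g)
  by_cases hs : IsSplitTrace (tr g)
  · exact (Nat.Even.sub_odd (Fintype.card_pos) he odd_one).of_dvd_nat (orderOf_dvd_split ht hs)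
  · exact he.add_one.of_dvd_nat (orderOf_dvd_nonsplit hs)

lemma tr_eq_zero_of_orderOf_two {g : SL₂ F} (hg : orderOf (pmk g : PSL₂ F) = 2) : tr g = 0 := by
  by_contra h
  have := odd_orderOf_pmk_two h
  rw [hg] at this
  exact absurd this (by decide)

lemma exists_common_two {g h : SL₂ F} (hg : tr g = 0) (hg1 : g ≠ 1) (hh : tr h = 0) (hh1 : h ≠ 1) :
    ∃ k : SL₂ F, tr k = 0 ∧ k ≠ 1 ∧ (g = k ∨ tr (g * k) ≠ 0) ∧ (k = h ∨ tr (k * h) ≠ 0) := by
  by_cases hadj : g = h ∨ tr (g * h) ≠ 0
  · exact ⟨g, hg, hg1, Or.inl rfl, hadj⟩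
  push Not at hadj
  obtain ⟨hne, hgh⟩ := hadj
  have h20 : (2 : F) = 0 := CharTwo.two_eq_zero
  obtain ⟨a, ha, hconj⟩ := exists_isConj_u hg1 (by rw [hg, h20])
  obtain ⟨c, hc⟩ := isConj_iff.1 hconj
  set h' := c * h * c⁻¹ with hh'
  have htr' : tr h' = 0 := by rw [hh', tr_conj, hh]
  have hprod : tr (u a * h') = 0 := by
    rw [← hc, hh', show c * g * c⁻¹ * (c * h * c⁻¹) = c * (g * h) * c⁻¹ by group, tr_conj, hgh]
  simp [tr, Matrix.mul_apply, Fin.sum_univ_two] at hprod
  rw [tr] at htr'
  have h10 : (h' : M₂ F) 1 0 = 0 := by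
    have : a * (h' : M₂ F) 1 0 = 0 := by linear_combination hprod - htr'
    exact (mul_eq_zero.1 this).resolve_left ha
  have h01 : (h' : M₂ F) 0 1 ≠ 0 := by
    intro h0
    apply hh1
    have hd := det_eq h'
    rw [h0, zero_mul, sub_zero] at hd
    have h11 : (h' : M₂ F) 1 1 = (h' : M₂ F) 0 0 := by
      linear_combination htr' - (h' : M₂ F) 0 0 * h20
    rw [h11] at hd
    have h00 : (h' : M₂ F) 0 0 = 1 := by
      have : ((h' : M₂ F) 0 0 - 1) * ((h' : M₂ F) 0 0 - 1) = 0 := by
        linear_combination hd - ((h' : M₂ F) 0 0 - 1) * h20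
      exact sub_eq_zero.1 (mul_self_eq_zero.1 this)
    have : h' = 1 := by apply ext4 <;> simp [h00, h0, h10, h11]
    exact (MulAut.conj c).injective (show c * h * c⁻¹ = MulAut.conj c 1 by rw [map_one, ← hh', this])
  refine ⟨c⁻¹ * l 1 * c, ?_, ?_, Or.inr ?_, Or.inr ?_⟩
  · have := tr_conj (l (1 : F)) c⁻¹
    rw [inv_inv] at this
    rw [this]
    simp [tr]; linear_combination h20
  · intro e
    have e' : l (1 : F) = 1 := by
      calc l (1 : F) = c * (c⁻¹ * l 1 * c) * c⁻¹ := by group
        _ = 1 := by rw [e]; group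
    exact one_ne_zero (l_injective (e'.trans l_zero.symm))
  · rw [← tr_conj (g * (c⁻¹ * l 1 * c)) c,
      show c * (g * (c⁻¹ * l 1 * c)) * c⁻¹ = (c * g * c⁻¹) * l 1 by group, hc]
    simp [tr, Matrix.mul_apply, Fin.sum_univ_two]
    intro e
    exact ha (by linear_combination e - h20)
  · rw [← tr_conj (c⁻¹ * l 1 * c * h) c,
      show c * (c⁻¹ * l 1 * c * h) * c⁻¹ = l 1 * (c * h * c⁻¹) by group, ← hh']
    simp [tr, Matrix.mul_apply, Fin.sum_univ_two, h10]
    intro e
    exact h01 (by linear_combination e - htr')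

lemma isConj_of_orderOf_two' {x y : PSL₂ F} (hx : orderOf x = 2) (hy : orderOf y = 2) :
    IsConj x y := by
  haveI : Fact (2 : ℕ).Prime := ⟨Nat.prime_two⟩
  have key : ∀ z : PSL₂ F, orderOf z = 2 → IsConj z (pmk (u 1)) := by
    intro z hz
    obtain ⟨g, rfl⟩ := pmk_surjective z
    have hg1 : g ≠ 1 := by rintro rfl; simp at hz
    obtain ⟨a, ha, hga⟩ := exists_isConj_u hg1
      (by rw [tr_eq_zero_of_orderOf_two hz, CharTwo.two_eq_zero])
    obtain ⟨b, hb⟩ := FiniteField.isSquare_of_char_two (ringChar.eq F 2) a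
    have hb0 : b ≠ 0 := by rintro rfl; simp at hb; exact ha hb
    refine MonoidHom.map_isConj pmk (hga.trans (isConj_iff.2 ⟨d (Units.mk0 b hb0)⁻¹, ?_⟩))
    rw [d_conj_u]
    congr 1
    simp [hb]
    field_simp
  exact (key x hx).trans (key y hy).symm

end Two

variable [Fintype F]

theorem odd_product_graph_diam (hF : 4 ≤ Fintype.card F) (t : PSL₂ F) (ht : orderOf t = 2) :
    (SimpleGraph.fromRel fun x y : {x : PSL₂ F // IsConj t x} =>
        Odd (orderOf (x.1 * y.1))).Connected ∧
      (SimpleGraph.fromRel fun x y : {x : PSL₂ F // IsConj t x} =>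
        Odd (orderOf (x.1 * y.1))).diam = 2 := by
  classical
  have hord : ∀ x : {x : PSL₂ F // IsConj t x}, orderOf x.1 = 2 := fun x => by
    obtain ⟨z, hz⟩ := isConj_iff.1 x.2
    rw [← hz]
    exact (orderOf_injective (MulAut.conj z).toMonoidHom (MulAut.conj z).injective t).trans ht
  set G := SimpleGraph.fromRel fun x y : {x : PSL₂ F // IsConj t x} => Odd (orderOf (x.1 * y.1))
  have hsymm : ∀ x y : {x : PSL₂ F // IsConj t x},
      orderOf (y.1 * x.1) = orderOf (x.1 * y.1) := fun x y => by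
    refine Eq.trans ?_ (orderOf_injective (MulAut.conj y.1).toMonoidHom (MulAut.conj y.1).injective _)
    congr 1
    show y.1 * x.1 = y.1 * (x.1 * y.1) * y.1⁻¹
    group
  -- common neighbours and a non-adjacent pair
  obtain ⟨hcommon, x₁, x₂, hne, hev⟩ :
      (∀ x y : {x : PSL₂ F // IsConj t x}, ∃ z : {x : PSL₂ F // IsConj t x},
        (x = z ∨ Odd (orderOf (x.1 * z.1))) ∧ (z = y ∨ Odd (orderOf (z.1 * y.1)))) ∧
      ∃ x₁ x₂ : {x : PSL₂ F // IsConj t x}, x₁ ≠ x₂ ∧ orderOf (x₁.1 * x₂.1) = 2 := by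
    by_cases hodd : Odd (Fintype.card F)
    · have h2 := two_ne_zero_iff_odd.2 hodd
      have hcls : ∀ {g : SL₂ F}, tr g = 0 → IsConj t (pmk g) := fun hg =>
        isConj_of_orderOf_two ht ((orderOf_pmk_eq_two_iff h2).2 hg)
      constructor
      · intro x y
        obtain ⟨g, hg⟩ := pmk_surjective x.1
        obtain ⟨h, hh⟩ := pmk_surjective y.1
        have hg0 := (orderOf_pmk_eq_two_iff h2).1 (hg ▸ hord x)
        have hh0 := (orderOf_pmk_eq_two_iff h2).1 (hh ▸ hord y)
        obtain ⟨k, hk, h1, h3⟩ := exists_common hodd hF hg0 hh0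
        exact ⟨⟨pmk k, hcls hk⟩,
          Or.inr (by rw [← hg, ← map_mul]; exact odd_orderOf_pmk hodd h1),
          Or.inr (by rw [← hh, ← map_mul]; exact odd_orderOf_pmk hodd h3)⟩
      · -- `w` and an element anticommuting with it
        have hwt := tr_zero_sq_ne_four h2 (tr_w (F := F))
        obtain ⟨c, hc, hcc, hcC⟩ := exists_inverting hwt
        have hc0 : tr c = 0 := mul_self_eq_neg_one_iff.1 hcc
        refine ⟨⟨pmk w, hcls tr_w⟩, ⟨pmk c, hcls hc0⟩, ?_, ?_⟩
        · intro e
          apply hcC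
          rcases pmk_eq_iff.1 (congrArg Subtype.val e).symm with e' | e' <;> rw [e']
          · exact Subgroup.mem_centralizer_singleton_iff.2 rfl
          · exact Subgroup.mem_centralizer_singleton_iff.2 ((Commute.refl w).neg_left).eq
        · rw [← map_mul, orderOf_pmk_eq_two_iff h2]
          -- `tr (w c) = 0`
          have h1 : c * w = w⁻¹ * c := by rw [← hc]; group
          have e1 : tr (c * w) = tr (w * c) := by
            rw [← tr_conj (w * c) c]; congr 1; group
          rw [h1, inv_of_tr_zero tr_w, neg_mul, tr_neg] at e1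
          have : (2 : F) * tr (w * c) = 0 := by linear_combination -e1
          exact (mul_eq_zero.1 this).resolve_left h2
    · haveI : CharP F 2 := by
        obtain ⟨p, hp⟩ := CharP.exists F
        haveI : Fact p.Prime := ⟨CharP.char_is_prime F p⟩
        have h20 : (2 : F) = 0 := not_not.1 fun h => hodd (two_ne_zero_iff_odd.1 h)
        have : p = 2 := (Nat.prime_dvd_prime_iff_eq Fact.out Nat.prime_two).1
          ((CharP.cast_eq_zero_iff F p 2).1 (by exact_mod_cast h20))
        exact this ▸ hp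
      haveI : Fact (2 : ℕ).Prime := ⟨Nat.prime_two⟩
      have hc1 : ∀ {k : SL₂ F}, pmk k = (1 : PSL₂ F) → k = 1 := fun hk => by
        rcases pmk_eq_one_iff.1 hk with e | e
        · exact e
        · rw [e, neg_one_eq_one]
      have hinj : Function.Injective (pmk : (SL₂ F) → PSL₂ F) := fun g h e => by
        rcases pmk_eq_iff.1 e with e' | e'
        · exact e'
        · rw [e', ← neg_one_mul, neg_one_eq_one, one_mul]
      have hcls : ∀ {k : SL₂ F}, tr k = 0 → k ≠ 1 → IsConj t (pmk k) := fun {k} hk hk1 => by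
        refine isConj_of_orderOf_two' ht ?_
        rw [orderOf_injective pmk hinj]
        exact orderOf_eq_of_tr_eq_two hk1 (by rw [hk, CharTwo.two_eq_zero])
      constructor
      · intro x y
        obtain ⟨g, hg⟩ := pmk_surjective x.1
        obtain ⟨h, hh⟩ := pmk_surjective y.1
        have hgo := hg ▸ hord x
        have hho := hh ▸ hord y
        obtain ⟨k, hk, hk1, e1, e2⟩ := exists_common_two (tr_eq_zero_of_orderOf_two hgo)
          (by rintro rfl; simp at hgo) (tr_eq_zero_of_orderOf_two hho) (by rintro rfl; simp at hho)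
        refine ⟨⟨pmk k, hcls hk hk1⟩, ?_, ?_⟩
        · exact e1.imp (fun e => Subtype.ext (by rw [← hg, e]))
            (fun e => by rw [← hg, ← map_mul]; exact odd_orderOf_pmk_two e)
        · exact e2.imp (fun e => Subtype.ext (by rw [← hh, ← e]))
            (fun e => by rw [← hh, ← map_mul]; exact odd_orderOf_pmk_two e)
      · obtain ⟨s, hs0, hs1⟩ : ∃ s : F, s ≠ 0 ∧ s ≠ 1 := by
          by_contra hcon
          push Not at hcon
          have := (Finset.card_le_card (show (Finset.univ : Finset F) ⊆ {0, 1} from fun x _ => by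
            by_cases h : x = 0 <;> simp [h, hcon x])).trans Finset.card_le_two
          rw [Finset.card_univ] at this
          omega
        have hu : ∀ r : F, r ≠ 0 → IsConj t (pmk (u r)) := fun r hr =>
          hcls (by rw [tr_u, CharTwo.two_eq_zero]) (by simpa using hr)
        refine ⟨⟨pmk (u 1), hu 1 one_ne_zero⟩, ⟨pmk (u s), hu s hs0⟩, ?_, ?_⟩
        · intro e
          exact hs1 (u_injective (hinj (congrArg Subtype.val e))).symm
        · rw [← map_mul, ← u_add, orderOf_injective pmk hinj]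
          refine orderOf_u (fun e => hs1 ?_)
          linear_combination e - (CharTwo.two_eq_zero : (2 : F) = 0)
  have hwalk : ∀ x y, G.edist x y ≤ 2 := by
    intro x y
    obtain ⟨z, h1, h3⟩ := hcommon x y
    have hstep : ∀ a b : {x : PSL₂ F // IsConj t x},
        (a = b ∨ Odd (orderOf (a.1 * b.1))) → G.edist a b ≤ 1 := by
      intro a b hab
      by_cases e : a = b
      · subst e; simp
      · exact (SimpleGraph.edist_eq_one_iff_adj.2 ((SimpleGraph.fromRel_adj _ a b).2
          ⟨e, Or.inl (hab.resolve_left e)⟩)).le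
    calc G.edist x y ≤ G.edist x z + G.edist z y := SimpleGraph.edist_triangle
      _ ≤ 1 + 1 := add_le_add (hstep _ _ h1) (hstep _ _ h3)
      _ = 2 := one_add_one_eq_two
  haveI : Nonempty {x : PSL₂ F // IsConj t x} := ⟨x₁⟩
  have hconn : G.Connected := ⟨fun x y => SimpleGraph.edist_ne_top_iff_reachable.1
    (ne_top_of_le_ne_top (by simp) (hwalk x y))⟩
  refine ⟨hconn, ?_⟩
  have htop : G.ediam ≠ ⊤ :=
    ne_top_of_le_ne_top (by simp) (SimpleGraph.ediam_le_of_edist_le hwalk)
  refine le_antisymm ?_ ?_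
  · have := SimpleGraph.ediam_le_of_edist_le hwalk
    exact ENat.toNat_le_of_le_natCast this
  · refine le_trans ?_ (SimpleGraph.dist_le_diam htop (u := x₁) (v := x₂))
    have h0 : G.dist x₁ x₂ ≠ 0 := fun h => hne ((hconn.dist_eq_zero_iff).1 h)
    have h1 : G.dist x₁ x₂ ≠ 1 := fun h => by
      obtain ⟨-, e | e⟩ := SimpleGraph.dist_eq_one_iff_adj.1 h
      · rw [hev] at e; exact absurd e (by decide)
      · rw [hsymm, hev] at e; exact absurd e (by decide)
    omega

end CfsgLib.SL2
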